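import Cfsg.Agent.H141.Ux.Stmts

/-!
# UX (S5716): `UB1`, no blocks (helper497, task 6001)
-/

set_option autoImplicit false

namespace Cfsg.Agent.H497.Ux

open Module Cfsg.Agent.H847.Bs Cfsg.Agent.H141.Ux
open Cfsg.Agent.H440.Bs (perp mem_perp dec_perp exists_add lin lin_apply)
open Cfsg Subgroup

section

variable {F V : Type*} [Field F] [AddCommGroup V] [Module F V]

theorem prime_gt [Finite F] {e m r : ℕ} (he : 1 ≤ e) (h : Pp F e m) (hr : r.Prime) (hrm : r ∣ m) : e < r := by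
  obtain ⟨-, -, h3⟩ := h
  have := Fintype.ofFinite F
  obtain ⟨f, hp, hf⟩ := FiniteField.card F (ringChar F)
  have h4 := h3 r hr hrm f (by rw [Nat.card_eq_fintype_card]; exact hf)
  haveI := Fact.mk hr
  have hef : 0 < e * (f : ℕ) := Nat.mul_pos he f.pos
  have h5 : orderOf ((ringChar F : ℕ) : ZMod r) ≠ 0 := by rw [h4]; exact hef.ne'
  have h6 : ((ringChar F : ℕ) : ZMod r) ≠ 0 := by
    intro h0
    apply h5
    rw [h0, orderOf_eq_zero_iff']
    intro n hn
    rw [zero_pow hn.ne']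
    exact zero_ne_one
  have h7 := ZMod.orderOf_dvd_card_sub_one h6
  have h8 := Nat.le_of_dvd (Nat.sub_pos_of_lt hr.one_lt) h7
  rw [h4] at h8
  have h9 : e ≤ e * (f : ℕ) := Nat.le_mul_of_pos_right e f.pos
  have := hr.one_lt
  omega

/-- the stabiliser of a subspace -/
def stab (D : Submodule F V) : Subgroup (V ≃ₗ[F] V) where
  carrier := {g | D.map (g : V →ₗ[F] V) = D}
  one_mem' := Submodule.map_id D
  mul_mem' := by
    intro g h hg hh
    change D.map ((g : V →ₗ[F] V) ∘ₗ (h : V →ₗ[F] V)) = D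
    rw [Submodule.map_comp, hh, hg]
  inv_mem' := by
    intro g hg
    change D.map ((g⁻¹ : V ≃ₗ[F] V) : V →ₗ[F] V) = D
    conv_lhs => rw [← show D.map (g : V →ₗ[F] V) = D from hg]
    rw [← Submodule.map_comp]
    have : ((g⁻¹ : V ≃ₗ[F] V) : V →ₗ[F] V) ∘ₗ (g : V →ₗ[F] V) = LinearMap.id := by
      ext v
      exact g.symm_apply_apply v
    rw [this, Submodule.map_id]

theorem mem_stab {D : Submodule F V} {g : V ≃ₗ[F] V} : g ∈ stab D ↔ D.map (g : V →ₗ[F] V) = D := Iff.rfl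

theorem inv_of_stab {D : Submodule F V} {g : V ≃ₗ[F] V} (h : g ∈ stab D) : Inv g D := by
  intro v hv
  have h1 : g v ∈ D.map (g : V →ₗ[F] V) := ⟨v, hv, rfl⟩
  rwa [mem_stab.1 h] at h1

variable {Φ : Frm F V}

theorem blk_map {H : Subgroup (V ≃ₗ[F] V)} (hH : H ≤ Φ.Iso) {D : Submodule F V} (hD : Blk Φ H D) {h : V ≃ₗ[F] V}
    (hh : h ∈ H) : Blk Φ H (D.map (h : V →ₗ[F] V)) := by
  refine ⟨?_, ?_, ?_⟩
  · intro ht
    apply hD.ne_top
    rw [eq_top_iff]
    intro v _
    have h1 : h v ∈ D.map (h : V →ₗ[F] V) := by rw [ht]; trivial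
    obtain ⟨w, hw, hwv⟩ := h1
    have h2 : w = v := h.injective hwv
    rwa [← h2]
  · rintro _ ⟨v, hv, rfl⟩ h0
    have h1 : v = 0 := hD.nd v hv fun w hw => by
      rw [← (hH hh).1 v w]
      exact h0 _ ⟨w, hw, rfl⟩
    rw [h1, map_zero]
  · intro g hg
    rcases hD.orth (h⁻¹ * g * h) (H.mul_mem (H.mul_mem (H.inv_mem hh) hg) hh) with h1 | h1
    · left
      conv_rhs => rw [← h1]
      rw [← Submodule.map_comp, ← Submodule.map_comp]
      congr 1
      ext v
      change g (h v) = h (h⁻¹ (g (h v)))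
      exact (h.apply_symm_apply _).symm
    · right
      rintro _ ⟨_, ⟨v, hv, rfl⟩, rfl⟩ _ ⟨w, hw, rfl⟩
      have h2 := h1 _ ⟨v, hv, rfl⟩ w hw
      rw [← (hH hh).1] at h2
      have h3 : h ((h⁻¹ * g * h : V ≃ₗ[F] V) v) = g (h v) := by
        change h (h⁻¹ (g (h v))) = g (h v)
        exact h.apply_symm_apply _
      change Φ.B (g (h v)) (h w) = 0
      rw [← h3]
      exact h2

/-- many orthogonal images of a block: `z - 1` has large rank -/
theorem blocks_le [FiniteDimensional F V] {z : V ≃ₗ[F] V} (hz : z ∈ Φ.Iso) {E D : Submodule F V} {e : ℕ}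
    (hE : ∀ v, z v - v ∈ E) (hD : Φ.NdOn D)
    (horth : ∀ i j, i < j → j ≤ e → ∀ v ∈ D, ∀ w ∈ D, Φ.B ((z ^ j : V ≃ₗ[F] V) v) ((z ^ i : V ≃ₗ[F] V) w) = 0) :
    e * finrank F D ≤ finrank F E := by
  have horth' : ∀ i j, i ≠ j → i ≤ e → j ≤ e → ∀ v ∈ D, ∀ w ∈ D,
      Φ.B ((z ^ i : V ≃ₗ[F] V) v) ((z ^ j : V ≃ₗ[F] V) w) = 0 := by
    intro i j hij hi hj v hv w hw
    rcases lt_or_gt_of_ne hij with h | h
    · exact Φ.refl _ _ (horth i j h hj w hw v hv)
    · exact horth j i h hi v hv w hw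
  let T : Fin e → D →ₗ[F] E := fun i => LinearMap.codRestrict E
    (((z ^ ((i : ℕ) + 1) : V ≃ₗ[F] V) : V →ₗ[F] V) ∘ₗ D.subtype - ((z ^ (i : ℕ) : V ≃ₗ[F] V) : V →ₗ[F] V) ∘ₗ D.subtype)
    (fun v => by
      change (z ^ ((i : ℕ) + 1) : V ≃ₗ[F] V) (v : V) - (z ^ (i : ℕ) : V ≃ₗ[F] V) (v : V) ∈ E
      rw [pow_succ']
      exact hE _)
  let Ψ : (Fin e → D) →ₗ[F] E := ∑ i : Fin e, (T i) ∘ₗ LinearMap.proj i
  have hΨ : ∀ u : Fin e → D, ((Ψ u : E) : V) =
      ∑ i : Fin e, ((z ^ ((i : ℕ) + 1) : V ≃ₗ[F] V) (u i : V) - (z ^ (i : ℕ) : V ≃ₗ[F] V) (u i : V)) := by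
    intro u
    change ((∑ i : Fin e, (T i) ∘ₗ LinearMap.proj i : (Fin e → D) →ₗ[F] E) u : V) = _
    rw [LinearMap.sum_apply, Submodule.coe_sum]
    rfl
  have hinj : Function.Injective Ψ := by
    rw [← LinearMap.ker_eq_bot, LinearMap.ker_eq_bot']
    intro u hu
    have h0 : ∑ i : Fin e, ((z ^ ((i : ℕ) + 1) : V ≃ₗ[F] V) (u i : V) - (z ^ (i : ℕ) : V ≃ₗ[F] V) (u i : V)) = 0 := by
      rw [← hΨ, hu]; rfl
    have key : ∀ n : ℕ, ∀ hn : n < e, u ⟨n, hn⟩ = 0 := by
      intro n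
      induction n using Nat.strong_induction_on with
      | _ n ih =>
        intro hn
        have h1 : ∀ w ∈ D, Φ.B (u ⟨n, hn⟩ : V) w = 0 := by
          intro w hw
          have h2 : lin Φ ((z ^ n : V ≃ₗ[F] V) w) (∑ i : Fin e, ((z ^ ((i : ℕ) + 1) : V ≃ₗ[F] V) (u i : V) -
              (z ^ (i : ℕ) : V ≃ₗ[F] V) (u i : V))) = 0 := by rw [h0, map_zero]
          rw [map_sum] at h2
          rw [Finset.sum_eq_single (⟨n, hn⟩ : Fin e)] at h2
          · rw [map_sub, lin_apply, lin_apply, horth' (n + 1) n (by omega) (by omega) (by omega) _ (u ⟨n, hn⟩).2 w hw,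
              (Φ.Iso.pow_mem hz n).1, zero_sub, neg_eq_zero] at h2
            exact h2
          · intro i _ hi
            have hi' : (i : ℕ) ≠ n := fun h => hi (Fin.ext h)
            have hie := i.2
            rw [map_sub, lin_apply, lin_apply, horth' (i : ℕ) n hi' (by omega) (by omega) _ (u i).2 w hw, sub_zero]
            by_cases h3 : (i : ℕ) + 1 = n
            · have h4 : u i = 0 := ih i (by omega) i.2
              rw [h4, Submodule.coe_zero, map_zero]
              exact Cfsg.Agent.H440.Bs.B_zero_left Φ _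
            · exact horth' _ n h3 (by omega) (by omega) _ (u i).2 w hw
          · intro h
            exact absurd (Finset.mem_univ _) h
        exact Subtype.ext (hD _ (u ⟨n, hn⟩).2 h1)
    funext i
    exact key i i.2
  have h1 := LinearMap.finrank_le_finrank_of_injective hinj
  rw [Module.finrank_pi_fintype, Finset.sum_const, Finset.card_univ, Fintype.card_fin, smul_eq_mul] at h1
  exact h1

end

/-- **UB1** -/
theorem ub1 : UB1 := by
  intro F V _ _ _ _ _ Φ e hN x hx y hy E z hE hxE hirr D hD hd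
  set H := closure {x, y} with hHdef
  have hHI : H ≤ Φ.Iso := (closure_le _).2 (by rintro g (rfl | rfl) <;> assumption)
  have hyH : y ∈ H := subset_closure (Or.inr rfl)
  have hzH : z ∈ H := (zpowers_le.2 hyH) hE.mem
  have hzI : z ∈ Φ.Iso := hHI hzH
  obtain ⟨a, ha, b, hb, hab⟩ := hxE
  -- `E ≠ 0`
  have hEne : E ≠ ⊥ := by
    rintro rfl
    rw [Submodule.mem_bot] at ha
    rw [ha, map_zero, Cfsg.Agent.H440.Bs.B_zero_left] at hab
    exact hab rfl
  have he : 1 ≤ e := by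
    rw [← hE.dim]
    exact Nat.one_le_iff_ne_zero.2 fun h => hEne (Submodule.finrank_eq_zero.1 h)
  have hyE : y ∈ stab E := Cfsg.Agent.H440.Bs.Inv.map_eq hE.inv
  have hzE : z ∈ stab E := (zpowers_le.2 hyE) hE.mem
  have him : ∀ v, z v - v ∈ E := by
    intro v
    obtain ⟨d, hd', u, hu, rfl⟩ := exists_add (dec_perp Φ hN hE.nd).compl v
    rw [map_add, hE.fix u hu, add_sub_add_right_eq_sub]
    exact E.sub_mem (inv_of_stab hzE d hd') hd'
  -- `z` fixes every block
  have hfix : ∀ h ∈ H, z ∈ stab (D.map (h : V →ₗ[F] V)) := by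
    intro h hh
    by_contra hcon
    have hB := blk_map hHI hD hh
    set D₁ := D.map (h : V →ₗ[F] V) with hD₁
    have hk : ∀ k, 0 < k → k ≤ e → Φ.Orth (D₁.map ((z ^ k : V ≃ₗ[F] V) : V →ₗ[F] V)) D₁ := by
      intro k hk0 hke
      refine (hB.orth _ (H.pow_mem hzH k)).resolve_left fun hst => hcon ?_
      have hcop : Nat.Coprime k (orderOf z) := by
        rw [Nat.coprime_iff_gcd_eq_one]
        by_contra hg
        obtain ⟨r, hr, hrd⟩ := Nat.exists_prime_and_dvd hg
        have h1 := prime_gt he hE.ord hr (hrd.trans (Nat.gcd_dvd_right _ _))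
        have h2 := Nat.le_of_dvd hk0 (hrd.trans (Nat.gcd_dvd_left _ _))
        omega
      obtain ⟨m, hm⟩ := exists_pow_eq_self_of_coprime hcop
      rw [← hm]
      exact (stab D₁).pow_mem (mem_stab.2 hst) m
    have h1 := blocks_le (e := e) hzI him hB.nd (by
      intro i j hij hj v hv w hw
      obtain ⟨k, rfl⟩ := Nat.exists_eq_add_of_lt hij
      have h2 := hk (k + 1) (by omega) (by omega) _ ⟨v, hv, rfl⟩ w hw
      rw [show i + k + 1 = i + (k + 1) by ring, pow_add]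
      change Φ.B ((z ^ i : V ≃ₗ[F] V) ((z ^ (k + 1) : V ≃ₗ[F] V) v)) ((z ^ i : V ≃ₗ[F] V) w) = 0
      rw [(Φ.Iso.pow_mem hzI i).1]
      exact h2)
    rw [hE.dim, LinearEquiv.finrank_map_eq] at h1
    nlinarith
  -- a block moved by `z`
  obtain ⟨h, hh, v₁, hv₁, hzv⟩ : ∃ h ∈ H, ∃ v ∈ D.map (h : V →ₗ[F] V), z v ≠ v := by
    by_contra hcon
    push Not at hcon
    let Y : Submodule F V :=
      { carrier := {v | ∀ h ∈ H, z (h v) = h v}
        add_mem' := by
          intro v w hv hw h hh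
          rw [map_add, map_add, hv h hh, hw h hh]
        zero_mem' := by
          intro h _
          rw [map_zero, map_zero]
        smul_mem' := by
          intro c v hv h hh
          rw [map_smul, map_smul, hv h hh] }
    rcases hirr Y (fun g hg v hv h hh => hv (h * g) (H.mul_mem hh hg)) with h1 | h1
    · have h2 : D ≤ Y := fun v hv h hh => hcon h hh _ ⟨v, hv, rfl⟩
      rw [h1, le_bot_iff] at h2
      rw [h2, finrank_bot] at hd
      omega
    · obtain ⟨w, hw, hw0⟩ := (Submodule.ne_bot_iff _).1 hEne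
      apply hw0
      apply hE.fpf w hw
      have h2 : w ∈ Y := by rw [h1]; trivial
      exact h2 1 H.one_mem
  have hB := blk_map hHI hD hh
  have hzD := hfix h hh
  set D₁ := D.map (h : V →ₗ[F] V) with hD₁
  have hED : E ≤ D₁ := by
    have h1 := hE.irr (D₁.map ((z : V →ₗ[F] V) - LinearMap.id)) (by
      rintro _ ⟨v, _, rfl⟩
      exact him v) (by
      rintro _ ⟨v, hv, rfl⟩
      refine ⟨z v, inv_of_stab hzD v hv, ?_⟩
      change z (z v) - z v = z (z v - v)
      rw [map_sub])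
    rcases h1 with h1 | h1
    · exfalso
      apply hzv
      have h2 : z v₁ - v₁ ∈ D₁.map ((z : V →ₗ[F] V) - LinearMap.id) := ⟨v₁, hv₁, rfl⟩
      rw [h1, Submodule.mem_bot] at h2
      exact sub_eq_zero.1 h2
    · rw [← h1]
      rintro _ ⟨v, hv, rfl⟩
      exact D₁.sub_mem (inv_of_stab hzD v hv) hv
  have hxD : x ∈ stab D₁ := by
    refine (hB.orth x (subset_closure (Or.inl rfl))).resolve_right fun ho => hab ?_
    exact ho _ ⟨a, hED ha, rfl⟩ b (hED hb)
  have hyD : y ∈ stab D₁ := by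
    refine (hB.orth y hyH).resolve_right fun ho => ?_
    obtain ⟨w, hw, hw0⟩ := (Submodule.ne_bot_iff _).1 hEne
    apply hw0
    have h1 : y w = 0 := hE.nd (y w) (hE.inv w hw) fun u hu => ho _ ⟨w, hED hw, rfl⟩ u (hED hu)
    exact (y.map_eq_zero_iff).1 h1
  have hHD : H ≤ stab D₁ := (closure_le _).2 (by rintro g (rfl | rfl) <;> assumption)
  rcases hirr D₁ (fun g hg => inv_of_stab (hHD hg)) with h1 | h1
  · rw [h1] at hED
    exact hEne (le_bot_iff.1 hED)
  · exact hB.ne_top h1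

end Cfsg.Agent.H497.Ux
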